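import Cfsg.Agent.Lib.ClassSizesFour.Basic
import Cfsg.Agent.Lib.ClassSizes3.TwoIndexSetting
import Cfsg.Agent.Lib.CharTheory.Burnside

/-!
Class sizes `{1, p^a, r^b, p^a r^b}`: solvability, the two cores, and the nilpotency criterion.
-/

set_option autoImplicit false

namespace CfsgLib.ClassSizesFour

open Subgroup CfsgLib.ClassSizes3

variable {G : Type*} [Group G]

/-- Class sizes `{1, n, m, n * m}` with `n` a power of `p` and `m` a power of `r`. -/
structure Two (G : Type*) [Group G] (p r n m : ℕ) : Prop where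
  h : H4 G n m
  pp : p.Prime
  rp : r.Prime
  npow : ∃ a, n = p ^ a
  mpow : ∃ b, m = r ^ b

variable {p r n m : ℕ}

theorem Two.symm (hs : Two G p r n m) : Two G r p m n :=
  ⟨hs.h.symm, hs.rp, hs.pp, hs.mpow, hs.npow⟩

theorem Two.p_dvd (hs : Two G p r n m) : p ∣ n := by
  obtain ⟨a, rfl⟩ := hs.npow
  refine dvd_pow_self p fun e => ?_
  have := hs.h.one_lt_n
  rw [e, pow_zero] at this
  omega

theorem Two.not_dvd_m (hs : Two G p r n m) : ¬ p ∣ m := fun hd =>
  hs.pp.ne_one (Nat.dvd_one.mp (hs.h.cop.gcd_eq_one ▸ Nat.dvd_gcd hs.p_dvd hd))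

theorem Two.ne (hs : Two G p r n m) : p ≠ r := fun e => hs.not_dvd_m (e ▸ hs.symm.p_dvd)

theorem eq_one_of_iterate {z g a : G} {s : ℕ} (hp : p.Prime) (hs : s.Prime) (hne : p ≠ s)
    (hz : PEl s z) (ha : PEl p a) (hc : Commute z a) (h : z * g * z⁻¹ = g * a) : a = 1 := by
  have hiter : ∀ i : ℕ, z ^ i * g * (z ^ i)⁻¹ = g * a ^ i := by
    intro i
    induction i with
    | zero => simp
    | succ i ih =>
      have hci : z * a ^ i * z⁻¹ = a ^ i := by rw [(hc.pow_right i).eq, mul_inv_cancel_right]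
      calc z ^ (i + 1) * g * (z ^ (i + 1))⁻¹ = z * (z ^ i * g * (z ^ i)⁻¹) * z⁻¹ := by
            rw [pow_succ']; group
        _ = (z * g * z⁻¹) * (z * a ^ i * z⁻¹) := by rw [ih]; group
        _ = g * a * a ^ i := by rw [h, hci]
        _ = g * a ^ (i + 1) := by rw [pow_succ', mul_assoc]
  obtain ⟨k, hk⟩ := hz
  have has : PEl s a := ⟨k, by
    have := hiter (s ^ k)
    rw [hk, one_mul, inv_one, mul_one] at this
    exact left_eq_mul.mp this⟩
  by_contra hne1
  obtain ⟨l, hl⟩ := ha
  obtain ⟨l', hl'⟩ := has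
  have h1 := Nat.dvd_gcd (orderOf_dvd_of_pow_eq_one hl) (orderOf_dvd_of_pow_eq_one hl')
  rw [(((Nat.coprime_primes hp hs).mpr hne).pow l l').gcd_eq_one, Nat.dvd_one, orderOf_eq_one_iff] at h1
  exact hne1 h1

variable [Finite G]

theorem Two.central_other (hs : Two G p r n m) {t : ℕ} [ht : Fact t.Prime] (htp : t ≠ p) (htr : t ≠ r)
    {x : G} (hx : PEl t x) : x ∈ center G := by
  refine hs.h.central_of_not_dvd (fun hd => ?_) hx
  obtain ⟨a, ha⟩ := hs.npow
  obtain ⟨b, hb⟩ := hs.mpow
  rw [ha, hb] at hd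
  rcases (ht.out.dvd_mul).mp hd with h1 | h1
  · exact htp ((Nat.prime_dvd_prime_iff_eq ht.out hs.pp).mp (ht.out.dvd_of_dvd_pow h1))
  · exact htr ((Nat.prime_dvd_prime_iff_eq ht.out hs.rp).mp (ht.out.dvd_of_dvd_pow h1))

/-- `G` is solvable. -/
theorem Two.isSolvable (hs : Two G p r n m) : Group.IsSolvable G := by
  have hcard : Nat.card (G ⧸ center G) ∣
      p ^ (Nat.card G).factorization p * r ^ (Nat.card G).factorization r := by
    rw [← index_eq_card]
    have hi0 : (center G).index ≠ 0 := index_ne_zero_of_finite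
    have hpr0 : p ^ (Nat.card G).factorization p * r ^ (Nat.card G).factorization r ≠ 0 :=
      mul_ne_zero (pow_ne_zero _ hs.pp.ne_zero) (pow_ne_zero _ hs.rp.ne_zero)
    rw [← Nat.factorization_le_iff_dvd hi0 hpr0]
    intro t
    by_cases ht : t.Prime
    swap
    · rw [Nat.factorization_eq_zero_of_not_prime _ ht]
      exact Nat.zero_le _
    have hle : (center G).index.factorization t ≤ (Nat.card G).factorization t :=
      (Nat.factorization_le_iff_dvd hi0 Nat.card_pos.ne').mpr (index_dvd_card _) t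
    rw [Nat.factorization_mul (pow_ne_zero _ hs.pp.ne_zero) (pow_ne_zero _ hs.rp.ne_zero),
      Finsupp.add_apply, hs.pp.factorization_pow, hs.rp.factorization_pow]
    rcases eq_or_ne t p with rfl | htp
    · rw [Finsupp.single_eq_same]
      omega
    rcases eq_or_ne t r with rfl | htr
    · rw [Finsupp.single_eq_same]
      omega
    have : Fact t.Prime := ⟨ht⟩
    obtain ⟨D, hD⟩ := exists_sylowIn (p := t) (⊤ : Subgroup G)
    have hDz : D ≤ center G := fun x hx => hs.central_other htp htr (PEl.of_mem hD.isPGroup hx)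
    have hd := card_dvd_of_le hDz
    rw [hD.card, card_top, ht.pow_dvd_iff_le_factorization Nat.card_pos.ne'] at hd
    have h1 : (Nat.card (center G)).factorization t + (center G).index.factorization t =
        (Nat.card G).factorization t := by
      rw [← Finsupp.add_apply, ← Nat.factorization_mul Nat.card_pos.ne' hi0, card_mul_index]
    omega
  have hq : Group.IsSolvable (G ⧸ center G) :=
    CfsgLib.CharTheory.isSolvable_of_card_dvd_pow_mul_pow p r _ _ hs.pp hs.rp hcard
  have hc : Group.IsSolvable (center G) :=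
    Group.isSolvable_of_comm fun a b => Subtype.ext (mem_center_iff.mp b.2 a)
  exact Group.isSolvable_of_ker_le_range (center G).subtype (QuotientGroup.mk' (center G))
    (by rw [QuotientGroup.ker_mk', range_subtype])

/-- A `p`-element centralising both cores lies in the `p`-core. -/
theorem Two.core_mem (hs : Two G p r n m) {x : G} (hx : PEl p x)
    (hD : x ∈ centralizer (Cfsg.pCore p G : Set G)) (hE : x ∈ centralizer (Cfsg.pCore r G : Set G)) :
    x ∈ Cfsg.pCore p G := by
  have := hs.isSolvable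
  have : Fact p.Prime := ⟨hs.pp⟩
  have hF : x ∈ centralizer (Cfsg.fittingSubgroup G : Set G) := by
    have hle : Cfsg.fittingSubgroup G ≤ C x := by
      rw [CfsgLib.Cores.fittingSubgroup_eq_iSup_pCore]
      refine iSup_le fun t d hd => ?_
      have : Fact (t : ℕ).Prime := ⟨Nat.prime_of_mem_primeFactors t.2⟩
      by_cases htp : (t : ℕ) = p
      · rw [htp] at hd
        exact mem_C.mpr (mem_centralizer_iff.mp hD d hd)
      by_cases htr : (t : ℕ) = r
      · rw [htr] at hd
        exact mem_C.mpr (mem_centralizer_iff.mp hE d hd)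
      exact center_le_C x
        (hs.central_other htp htr (PEl.of_mem (CfsgLib.Cores.isPGroup_pCore _ G) hd))
    exact mem_centralizer_iff.mpr fun d hd => mem_C.mp (hle hd)
  refine mem_pCore_of_isNilpotent (N := centralizer (Cfsg.fittingSubgroup G : Set G)) ?_ hx hF
  refine ⟨⟨1, ?_⟩⟩
  rw [Subgroup.upperCentralSeries_one, eq_top_iff]
  exact fun a _ => mem_center_iff.mpr fun g => Subtype.ext
    (mem_centralizer_iff.mp a.2 g (CfsgLib.Cores.centralizer_fittingSubgroup_le g.2))

/-- An `r`-element centralising a self-centralising subgroup of a normal `p`-subgroup centralises it. -/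
theorem mem_centralizer_of_selfCentralizing [hp : Fact p.Prime] {s : ℕ} (hs : s.Prime) (hne : p ≠ s)
    {D H : Subgroup G} [D.Normal] (hD : IsPGroup p D) (hHD : H ≤ D)
    (hself : ∀ d ∈ D, (∀ k ∈ H, Commute d k) → d ∈ H) {z : G} (hz : PEl s z) (hH : H ≤ C z) :
    z ∈ centralizer (D : Set G) := by
  by_contra hzD
  have hne' : D ⊓ C z ≠ D := fun e => hzD (mem_centralizer_iff.mpr fun d hd => by
    have hd' : d ∈ D ⊓ C z := e.symm ▸ hd
    exact mem_C.mp hd'.2)
  obtain ⟨g, hgD, hg, hnorm⟩ := exists_normalizing hD inf_le_left hne'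
  set a := g⁻¹ * (z * g * z⁻¹) with ha
  have haD : a ∈ D := mul_mem (inv_mem hgD) (‹D.Normal›.conj_mem g hgD z)
  have haH : a ∈ H := by
    refine hself a haD fun k hk => ?_
    have h1 : z * (g * k * g⁻¹) = g * k * g⁻¹ * z := (mem_C.mp (hnorm k ⟨hHD hk, hH hk⟩).2).symm
    have h2 : z * k * z⁻¹ = k := by rw [← mem_C.mp (hH hk), mul_inv_cancel_right]
    have h3 : a * k * a⁻¹ = k :=
      calc a * k * a⁻¹ = g⁻¹ * (z * g * (z⁻¹ * k * z) * g⁻¹ * z⁻¹) * g := by rw [ha]; group
        _ = g⁻¹ * (z * (g * k * g⁻¹) * z⁻¹) * g := by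
            conv_lhs => rw [← h2]
            group
        _ = k := by rw [h1]; group
    exact mul_inv_eq_iff_eq_mul.mp h3
  have h4 := eq_one_of_iterate hp.out hs hne hz (PEl.of_mem hD haD)
    (mem_C.mp (hH haH)).symm (show z * g * z⁻¹ = g * a by rw [ha]; group)
  rw [ha, inv_mul_eq_one] at h4
  exact hg ⟨hgD, mem_C.mpr (mul_inv_eq_iff_eq_mul.mp h4.symm).symm⟩

/-- All `r`-elements centralise the `p`-core, given a `p`-element of class size `n`. -/
theorem Two.centralize_core (hs : Two G p r n m) {b : G} (hb : PEl p b) (hcb : cl b = n)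
    (hcomm : ∀ u ∈ C b, ∀ v ∈ C b, PEl p u → PEl r v → Commute u v) {z : G} (hz : PEl r z) :
    z ∈ centralizer (Cfsg.pCore p G : Set G) := by
  have : Fact p.Prime := ⟨hs.pp⟩
  have : Fact r.Prime := ⟨hs.rp⟩
  obtain ⟨P, hP, hbP⟩ := exists_sylowIn_ge (H := (⊤ : Subgroup G)) hb.isPGroup le_top
  have hbP' : b ∈ P := hbP (mem_zpowers b)
  have hNle : normalClosure ({b} : Set G) ≤ P := by
    refine (closure_le P).mpr fun c hc => ?_
    obtain ⟨b', hb', hcb'⟩ := Group.mem_conjugatesOfSet_iff.mp hc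
    rw [Set.mem_singleton_iff] at hb'
    subst b'
    obtain ⟨g, rfl⟩ := isConj_iff.mp hcb'
    obtain ⟨a, ha⟩ := hs.npow
    obtain ⟨s, hsP, e, he, rfl⟩ := exists_mul_of_index (le_top : C b ≤ ⊤) hP
      ⟨a, by rw [relIndex_top_right]; exact hcb.trans ha⟩ (mem_top g)
    rw [show s * e * b * (s * e)⁻¹ = s * b * s⁻¹ by
      rw [show s * e * b * (s * e)⁻¹ = s * (e * b * e⁻¹) * s⁻¹ by group,
        show e * b * e⁻¹ = b by rw [mem_C.mp he, mul_inv_cancel_right]]]
    exact mul_mem (mul_mem hsP hbP') (inv_mem hsP)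
  have hbD : b ∈ Cfsg.pCore p G :=
    CfsgLib.Cores.le_pCore (hP.isPGroup.to_le hNle) (subset_normalClosure rfl)
  obtain ⟨R, hR⟩ := exists_sylowIn (p := r) (C b)
  have hRfull := hR.full (show ¬ r ∣ (C b).index by
    rw [show (C b).index = n from hcb]
    exact hs.symm.not_dvd_m)
  obtain ⟨c, -, hc⟩ := hRfull.conj_mem hz (mem_top z)
  have key : c * z * c⁻¹ ∈ centralizer (Cfsg.pCore p G : Set G) :=
    mem_centralizer_of_selfCentralizing hs.rp hs.ne (CfsgLib.Cores.isPGroup_pCore p G)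
      (H := Cfsg.pCore p G ⊓ C b) inf_le_left
      (fun d hd hk => ⟨hd, mem_C.mpr (hk b ⟨hbD, self_mem_C b⟩).eq⟩) (hz.conj c)
      (fun k hk => mem_C.mpr (hcomm k hk.2 _ (hR.le hc)
        (PEl.of_mem (CfsgLib.Cores.isPGroup_pCore p G) hk.1) (hz.conj c)).eq)
  have := (inferInstance : (centralizer (Cfsg.pCore p G : Set G)).Normal).conj_mem _ key c⁻¹
  rwa [show c⁻¹ * (c * z * c⁻¹) * c⁻¹⁻¹ = z by group] at this

/-- A group whose `q`-elements, `q ≠ r`, are central is nilpotent. -/
theorem nilpotent_of_primary_central {X : Type*} [Group X] [Finite X] [hr : Fact r.Prime]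
    (h : ∀ q : ℕ, q.Prime → q ≠ r → ∀ x : X, PEl q x → x ∈ center X) : Group.IsNilpotent X := by
  have hp : IsPGroup r (X ⧸ center X) := by
    intro g
    obtain ⟨z, rfl⟩ := QuotientGroup.mk_surjective g
    obtain ⟨x, y, -, -, hxy, hc, ⟨k, hk⟩, hy⟩ := CfsgLib.Subnormal.exists_pPart_mul hr.out z
    have hyc : y ∈ center X := by
      by_contra hyc
      obtain ⟨q, w, hq, hw, hwy, hwc⟩ := exists_pel_notMem (center X) hyc
      refine hwc (h q hq (fun e => hwc ?_) w hw)
      obtain ⟨i, rfl⟩ := mem_zpowers_iff.mp hwy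
      obtain ⟨l, hl⟩ := hw
      have hd := Nat.dvd_gcd (orderOf_dvd_of_pow_eq_one hl)
        (orderOf_dvd_of_pow_eq_one (show (y ^ i) ^ orderOf y = 1 by
          rw [← zpow_natCast, ← zpow_mul, mul_comm, zpow_mul, zpow_natCast, pow_orderOf_eq_one,
            one_zpow]))
      rw [(e ▸ hy.symm.pow_left l : (q ^ l).Coprime (orderOf y)).gcd_eq_one, Nat.dvd_one,
        orderOf_eq_one_iff] at hd
      rw [hd]
      exact one_mem _
    refine ⟨k, ?_⟩
    rw [← QuotientGroup.mk_pow, QuotientGroup.eq_one_iff, ← hxy, hc.mul_pow, ← hk, pow_orderOf_eq_one,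
      one_mul]
    exact pow_mem hyc _
  exact Group.of_quotient_center_nilpotent hp.isNilpotent

theorem Two.mem_fitting_of_pel (hs : Two G p r n m)
    (hp : ∀ x : G, PEl p x → x ∈ centralizer (Cfsg.pCore r G : Set G))
    (hr : ∀ x : G, PEl r x → x ∈ centralizer (Cfsg.pCore p G : Set G)) {x : G} (hx : PEl r x) :
    x ∈ Cfsg.fittingSubgroup G := by
  have : Fact r.Prime := ⟨hs.rp⟩
  have hnil : Group.IsNilpotent (centralizer (Cfsg.pCore p G : Set G)) := by
    refine nilpotent_of_primary_central (r := r) fun q hq hqr u hu => ?_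
    have : Fact q.Prime := ⟨hq⟩
    have hu' : PEl q (u : G) := hu.imp fun k hk => by
      rw [← SubgroupClass.coe_pow, hk, OneMemClass.coe_one]
    refine mem_center_iff.mpr fun g => Subtype.ext ?_
    by_cases hqp : q = p
    · subst hqp
      exact (mem_centralizer_iff.mp g.2 _ (hs.core_mem hu' u.2 (hp _ hu'))).symm
    · exact mem_center_iff.mp (hs.central_other hqp hqr hu') g
  exact CfsgLib.Cores.pCore_le_fittingSubgroup r (mem_pCore_of_isNilpotent hnil hx (hr x hx))

/-- The two centralising conditions make `G` nilpotent. -/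
theorem Two.isNilpotent (hs : Two G p r n m)
    (hp : ∀ x : G, PEl p x → x ∈ centralizer (Cfsg.pCore r G : Set G))
    (hr : ∀ x : G, PEl r x → x ∈ centralizer (Cfsg.pCore p G : Set G)) : Group.IsNilpotent G := by
  rw [← CfsgLib.Cores.fittingSubgroup_eq_top_iff, eq_top_iff]
  intro g _
  by_contra hg
  obtain ⟨q, w, hq, hw, -, hwF⟩ := exists_pel_notMem _ hg
  have : Fact q.Prime := ⟨hq⟩
  by_cases hqr : q = r
  · exact hwF (hs.mem_fitting_of_pel hp hr (hqr ▸ hw))
  by_cases hqp : q = p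
  · exact hwF (hs.symm.mem_fitting_of_pel hr hp (hqp ▸ hw))
  refine hwF (CfsgLib.Cores.le_fittingSubgroup ?_ (hs.central_other hqp hqr hw))
  refine ⟨⟨1, ?_⟩⟩
  rw [Subgroup.upperCentralSeries_one, eq_top_iff]
  exact fun a _ => mem_center_iff.mpr fun g => Subtype.ext (mem_center_iff.mp a.2 g)

end CfsgLib.ClassSizesFour
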